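import Cfsg.Agent.Lib.Rec3D.Mod

/-! Block diagonal elements and the named subgroups of the model (plans/REC3D.md). -/

set_option autoImplicit false
set_option maxRecDepth 100000

namespace CfsgLib.Rec3D

open Matrix CfsgLib.W2 Subgroup
open CfsgLib.U43 (SL)

/-- the coordinate `s` of the block `k` -/
def ix (k : Fin 4) (s : Fin 2) : Fin 8 := ⟨2 * k.1 + s.1, by omega⟩

/-- the block `k` of a vector -/
def blk (v : V8) (k : Fin 4) : Fin 2 → ZMod 3 := fun s => v (ix k s)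

theorem blk_ext {v w : V8} (h : ∀ k, blk v k = blk w k) : v = w := funext fun i => by
  obtain ⟨k, s, rfl⟩ := (by decide : ∀ i, ∃ k s, i = ix k s) i
  exact congrFun (h k) s

@[simp] theorem blk_add (v w : V8) (k : Fin 4) : blk (v + w) k = blk v k + blk w k := rfl
@[simp] theorem blk_neg (v : V8) (k : Fin 4) : blk (-v) k = -blk v k := rfl
@[simp] theorem blk_sub (v w : V8) (k : Fin 4) : blk (v - w) k = blk v k - blk w k := rfl
@[simp] theorem blk_zero (k : Fin 4) : blk 0 k = 0 := rfl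

/-- the vector with given blocks -/
def unb (f : Fin 4 → Fin 2 → ZMod 3) : V8 := fun i => f ⟨i.1 / 2, by omega⟩ ⟨i.1 % 2, by omega⟩

@[simp] theorem blk_unb (f : Fin 4 → Fin 2 → ZMod 3) (k : Fin 4) : blk (unb f) k = f k := by
  funext s; fin_cases k <;> fin_cases s <;> rfl

/-- the form on a block -/
def b2 (a b : Fin 2 → ZMod 3) : ZMod 3 := a 0 * b 1 - a 1 * b 0

theorem B0_blk (v w : V8) : B0 v w = ∑ k, b2 (blk v k) (blk w k) := by
  rw [B0_eq, Fin.sum_univ_four]; rfl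

/-- the matrix of an element of `SL` -/
def m2 (s : SL) : Matrix (Fin 2) (Fin 2) (ZMod 3) := (U43.SL.rho s).1

theorem m2_mul (s t : SL) : m2 (s * t) = m2 s * m2 t := by rw [m2, map_mul]; rfl
theorem m2_inj : Function.Injective m2 := fun _ _ h => U43.SL.rho_bijective.1 (Subtype.ext h)
theorem m2_surj {A : Matrix (Fin 2) (Fin 2) (ZMod 3)} (h : A.det = 1) : ∃ s, m2 s = A := by
  obtain ⟨s, e⟩ := U43.SL.rho_bijective.2 ⟨A, h⟩
  exact ⟨s, congrArg Subtype.val e⟩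

theorem b2_m2 (s : SL) (a b : Fin 2 → ZMod 3) : b2 (m2 s *ᵥ a) (m2 s *ᵥ b) = b2 a b := by
  have h : (m2 s).det = 1 := (U43.SL.rho s).2
  rw [det_fin_two] at h
  simp only [b2, mulVec, dotProduct, Fin.sum_univ_two]
  linear_combination (a 0 * b 1 - a 1 * b 0) * h

theorem sp_of_B0 {A : M8} (h : ∀ v w, B0 (A *ᵥ v) (A *ᵥ w) = B0 v w) : Aᵀ * J0 * A = J0 := by
  ext i j
  have := h (Pi.single i 1) (Pi.single j 1)
  rw [B0_def, B0_def, ← vecMul_transpose, ← dotProduct_mulVec, mulVec_mulVec, mulVec_mulVec] at this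
  simpa using this

noncomputable def bdc (γ : Fin 4 → SL) : ℕ := pack fun i j =>
  Bool.rec 0 (Nat.mod (Nat.shiftRight 0x86496498a251251a26196192458a58a456a96a9518248241 (Nat.mul 2
    (Nat.add (Nat.mul 4 (γ (Fin.ofNat 4 (Nat.div i 2))).v) (Nat.add (Nat.mul 2 (Nat.mod i 2)) (Nat.mod j 2))))) 4)
    (Nat.beq (Nat.div i 2) (Nat.div j 2))

theorem dec_bdc (γ : Fin 4 → SL) (k l : Fin 4) (s t : Fin 2) :
    dec (bdc γ) (ix k s) (ix l t) = if k = l then m2 (γ k) s t else 0 := by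
  rw [bdc, dec_pack]
  fin_cases k <;> fin_cases l <;> fin_cases s <;> fin_cases t <;> rfl

theorem sum_ix (f : Fin 8 → ZMod 3) : ∑ i, f i = ∑ k, ∑ s, f (ix k s) := by
  simp only [Fin.sum_univ_eight, Fin.sum_univ_four, Fin.sum_univ_two, add_assoc]; rfl

theorem blk_bdc (γ : Fin 4 → SL) (v : V8) (k : Fin 4) : blk (dec (bdc γ) *ᵥ v) k = m2 (γ k) *ᵥ blk v k := by
  funext s
  simp only [blk, mulVec, dotProduct, sum_ix, dec_bdc, ite_mul, zero_mul, Finset.sum_ite_irrel, Finset.sum_const_zero,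
    Finset.sum_ite_eq, Finset.mem_univ, if_true]

theorem ok_bdc (γ : Fin 4 → SL) : ok (bdc γ) = true :=
  ok_iff.2 ⟨can_pack _, sp_of_B0 fun v w => by simp only [B0_blk, blk_bdc, b2_m2]⟩

noncomputable def bd0 (γ : Fin 4 → SL) : Sp := ⟨bdc γ, ok_bdc γ⟩

theorem blk_bd0 (γ : Fin 4 → SL) (v : V8) (k : Fin 4) : blk (bd0 γ • v) k = m2 (γ k) *ᵥ blk v k := blk_bdc γ v k

/-- block diagonal elements -/
noncomputable def bd : (Fin 4 → SL) →* Sp := MonoidHom.mk' bd0 fun γ δ =>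
  eq_of_smul fun v => blk_ext fun k => by
    rw [mul_smul, blk_bd0, blk_bd0, blk_bd0, Pi.mul_apply, m2_mul, mulVec_mulVec]

theorem blk_bd (γ : Fin 4 → SL) (v : V8) (k : Fin 4) : blk (bd γ • v) k = m2 (γ k) *ᵥ blk v k := blk_bdc γ v k

attribute [irreducible] bdc

theorem bd_inj : Function.Injective bd := fun γ δ h => funext fun k => m2_inj (toLin'.injective
  (LinearMap.ext fun a => by simpa [blk_bd] using congrArg (fun g : Sp => blk (g • unb fun _ => a) k) h))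

/-- the transposition of the blocks 2 and 3 -/
noncomputable def s23 : Sp := ⟨0x4000100400010000040001000040001, by decide +kernel⟩

/-- `c3` moves the block `k` to the block `pc k` -/
def pc : Equiv.Perm (Fin 4) := ⟨![0, 2, 3, 1], ![0, 3, 1, 2], by decide, by decide⟩

theorem blk_of_mat {g : Sp} {p : Fin 4 → Fin 4}
    (h : ∀ k s l t, mat g (ix (p k) s) (ix l t) = if k = l ∧ s = t then 1 else 0) (v : V8) (k : Fin 4) :
    blk (g • v) (p k) = blk v k := by
  funext s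
  simp only [blk, smul_def, mulVec, dotProduct, sum_ix, h, ite_and, ite_mul, zero_mul, one_mul, Finset.sum_ite_irrel,
    Finset.sum_const_zero, Finset.sum_ite_eq, Finset.mem_univ, if_true]

theorem blk_c3 (v : V8) (k : Fin 4) : blk (c3 • v) (pc k) = blk v k := blk_of_mat (by decide +kernel) v k
theorem blk_s23 (v : V8) (k : Fin 4) : blk (s23 • v) (Equiv.swap 2 3 k) = blk v k :=
  blk_of_mat (by decide +kernel) v k

/-- the signs, the diagonal and the element `p = (1, i, j, k)` -/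
theorem bd_vals : bd ![.o 1, 1, 1, 1] = aa ∧ bd ![1, 1, .o 1, .o 1] = uu ∧ bd ![1, .o 1, 1, .o 1] = vv ∧
    (bd fun _ => .o 1) = ng ∧ (bd fun _ => .o 2) = i3 ∧ (bd fun _ => .o 4) = j3 ∧ (bd fun _ => .o 8) = x3 := by
  decide +kernel

theorem aa_sq : aa * aa = 1 := by decide +kernel

/-- the vector fixed by `Jm` -/
def v0 : V8 := ![0, 0, 1, 1, 1, 1, 1, 1]

/-- a Sylow `3`-subgroup `3 ≀ 3` of `N1` -/
noncomputable def Pm : Subgroup Sp := closure {x1, sg}

/-- its elementary abelian subgroup of order 27 -/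
noncomputable def Jm : Subgroup Sp := closure {x1, x2, x3}

/-- the centraliser of `x0` modulo `Rm` -/
noncomputable def N0 : Subgroup Sp where
  carrier := {n | n ∈ N1 ∧ n * x0 * n⁻¹ * x0⁻¹ ∈ Rm}
  one_mem' := ⟨one_mem _, by simp⟩
  mul_mem' := fun {a b} ha hb => ⟨mul_mem ha.1 hb.1, by
    have := mul_mem (conj_Rm ha.1 hb.2) ha.2
    rwa [show a * (b * x0 * b⁻¹ * x0⁻¹) * a⁻¹ * (a * x0 * a⁻¹ * x0⁻¹) = a * b * x0 * (a * b)⁻¹ * x0⁻¹ by group] at this⟩
  inv_mem' := fun {a} ha => ⟨inv_mem ha.1, by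
    have := inv_mem (conj_Rm (inv_mem ha.1) ha.2)
    rwa [show (a⁻¹ * (a * x0 * a⁻¹ * x0⁻¹) * a⁻¹⁻¹)⁻¹ = a⁻¹ * x0 * a⁻¹⁻¹ * x0⁻¹ by group] at this⟩

theorem mem_N0 {n : Sp} : n ∈ N0 ↔ n ∈ N1 ∧ n * x0 * n⁻¹ * x0⁻¹ ∈ Rm := Iff.rfl
noncomputable instance (g : Sp) : Decidable (g ∈ N0) := decidable_of_iff _ mem_N0.symm
theorem N0_le : N0 ≤ N1 := fun _ h => h.1

/-- `Q₈⁴` -/
def Q84 : Subgroup (Fin 4 → SL) where
  carrier := {γ | ∀ k, γ k ^ 4 = 1}
  one_mem' := fun _ => one_pow _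
  mul_mem' := fun ha hb k => (by decide +kernel : ∀ a b : SL, a ^ 4 = 1 → b ^ 4 = 1 → (a * b) ^ 4 = 1) _ _ (ha k) (hb k)
  inv_mem' := fun ha k => by rw [Pi.inv_apply, inv_pow, ha k, inv_one]

/-- the block diagonal `2`-elements of `K` -/
noncomputable def PK (K : Subgroup Sp) : Subgroup Sp := K ⊓ Q84.map bd

/-- the vectors supported in the blocks of `S` -/
def Hb (S : Set (Fin 4)) : Subgroup He where
  carrier := {h | ∀ l ∉ S, blk h.v l = 0}
  one_mem' := fun _ _ => rfl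
  mul_mem' := fun ha hb l hl => by simp [ha l hl, hb l hl]
  inv_mem' := fun ha l hl => by simp [ha l hl]

theorem mem_Hb {S : Set (Fin 4)} {h : He} : h ∈ Hb S ↔ ∀ l ∉ S, blk h.v l = 0 := Iff.rfl

/-- `x - 1` -/
noncomputable def Nx (x : Sp) : M8 := mat x - 1

theorem Nx_mulVec (x : Sp) (v : V8) : Nx x *ᵥ v = x • v - v := by rw [Nx, sub_mulVec, one_mulVec, smul_def]

end CfsgLib.Rec3D
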